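import Cfsg.Agent.Lib.Helper97.Unitary
import Cfsg.Agent.Lib.Helper95.Herm
import Cfsg.Agent.Lib.Helper95.SLGen

set_option autoImplicit false

/-! The special unitary group of a non-degenerate hermitian form over a finite field is generated
by the unitary transvections (dimension at least 7). -/

namespace Cfsg.Agent.Lib.Helper97

open Module Cfsg.Agent.Lib.Helper95

section basic

variable {F V : Type*} [Field F] [AddCommGroup V] [Module F V]
variable {σ : F ≃+* F} {f : V → V → F}

lemma UF.hform (h : UF σ f) : HForm σ f where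
  ne_id := by
    by_contra hcon
    push Not at hcon
    exact h.ne_refl (RingEquiv.ext hcon)
  invol := h.involutive
  add_left := h.add_left
  smul_left := h.smul_left
  herm := h.herm
  nondeg := h.nondeg

/-- The isometry group of a form given as a function. -/
def UGrp (f : V → V → F) : Subgroup (V ≃ₗ[F] V) where
  carrier := {g | ∀ x y, f (g x) (g y) = f x y}
  mul_mem' := by
    intro a b ha hb x y
    rw [LinearEquiv.mul_apply, LinearEquiv.mul_apply, ha, hb]
  one_mem' := fun x y => rfl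
  inv_mem' := by
    intro a ha x y
    have := ha (a⁻¹ x) (a⁻¹ y)
    rw [← LinearEquiv.mul_apply, ← LinearEquiv.mul_apply, mul_inv_cancel] at this
    exact this.symm

lemma mem_UGrp {g : V ≃ₗ[F] V} : g ∈ UGrp f ↔ ∀ x y, f (g x) (g y) = f x y := Iff.rfl

lemma UGrp_inv_left {g : V ≃ₗ[F] V} (hg : g ∈ UGrp f) (x y : V) : f (g⁻¹ x) y = f x (g y) := by
  have := hg (g⁻¹ x) y
  rw [← LinearEquiv.mul_apply, mul_inv_cancel] at this
  exact this.symm

/-- The set of unitary transvections. -/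
def utSet (σ : F ≃+* F) (f : V → V → F) : Set (V ≃ₗ[F] V) :=
  {g | ∃ (v : V) (a : F), f v v = 0 ∧ σ a = -a ∧ ∀ x, g x = x + (a * f x v) • v}

/-- The subgroup generated by the unitary transvections. -/
def TGrp (σ : F ≃+* F) (f : V → V → F) : Subgroup (V ≃ₗ[F] V) := Subgroup.closure (utSet σ f)

variable (h : UF σ f)
include h

lemma sim_isometry {z : V} {l : F} (hl : l + σ l + l * σ l * f z z = 0) (x y : V) :
    f (x + (l * f x z) • z) (y + (l * f y z) • z) = f x y := by
  rw [h.add_left, h.add_right, h.add_right, h.smul_left, h.smul_left, h.smul_right, h.smul_right,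
    map_mul, ← h.herm z y]
  linear_combination (f x z * f z y) * hl

lemma exists_sim {z : V} {l : F} (hl : l + σ l + l * σ l * f z z = 0) :
    ∃ s : V ≃ₗ[F] V, ∀ x, s x = x + (l * f x z) • z := by
  have hu : IsUnit (1 + (l • h.hat z) z) := by
    rw [isUnit_iff_ne_zero]
    intro h0
    rw [LinearMap.smul_apply, UF.hat_apply, smul_eq_mul] at h0
    have h1 : l = 0 := by linear_combination hl - σ l * h0
    rw [h1] at h0
    simp at h0
  refine ⟨LinearEquiv.dilatransvection hu, fun x => ?_⟩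
  rw [LinearEquiv.dilatransvection.apply, LinearMap.smul_apply, UF.hat_apply, smul_eq_mul]

lemma mem_UGrp_of_formula {s : V ≃ₗ[F] V} {z : V} {l : F} (hl : l + σ l + l * σ l * f z z = 0)
    (hs : ∀ x, s x = x + (l * f x z) • z) : s ∈ UGrp f := by
  intro x y
  rw [hs, hs, sim_isometry h hl]

lemma det_of_formula [FiniteDimensional F V] {s : V ≃ₗ[F] V} {z : V} {l : F}
    (hs : ∀ x, s x = x + (l * f x z) • z) : ((LinearEquiv.det s : Fˣ) : F) = 1 + l * f z z := by
  rw [LinearEquiv.coe_det]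
  have : (s : V →ₗ[F] V) = LinearMap.transvection (l • h.hat z) z := by
    ext x
    rw [LinearEquiv.coe_coe, hs, LinearMap.transvection.apply, LinearMap.smul_apply, UF.hat_apply,
      smul_eq_mul]
  rw [this, LinearMap.transvection.det, LinearMap.smul_apply, UF.hat_apply, smul_eq_mul]

lemma utSet_subset_UGrp : utSet σ f ⊆ UGrp f := by
  rintro g ⟨v, a, hv, ha, hg⟩
  exact mem_UGrp_of_formula h (by rw [ha, hv]; ring) hg

lemma TGrp_le_UGrp : TGrp σ f ≤ UGrp f := (Subgroup.closure_le _).2 (utSet_subset_UGrp h)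

lemma TGrp_le_slGrp [FiniteDimensional F V] : TGrp σ f ≤ slGrp F V := by
  refine (Subgroup.closure_le _).2 ?_
  rintro g ⟨v, a, hv, ha, hg⟩
  change LinearEquiv.det g = 1
  apply Units.ext
  rw [det_of_formula h hg, hv]; simp

omit h in
lemma TGrp_conj {u t : V ≃ₗ[F] V} (hu : u ∈ UGrp f) (ht : t ∈ TGrp σ f) :
    u * t * u⁻¹ ∈ TGrp σ f := by
  induction ht using Subgroup.closure_induction with
  | mem g hg =>
    obtain ⟨v, a, hv, ha, hg⟩ := hg
    refine Subgroup.subset_closure ⟨u v, a, by rw [hu, hv], ha, fun x => ?_⟩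
    rw [LinearEquiv.mul_apply, LinearEquiv.mul_apply, hg, map_add, map_smul,
      ← LinearEquiv.mul_apply, mul_inv_cancel, UGrp_inv_left hu]
    rfl
  | one => simp
  | mul a b _ _ ha hb =>
    have : u * (a * b) * u⁻¹ = (u * a * u⁻¹) * (u * b * u⁻¹) := by group
    rw [this]; exact Subgroup.mul_mem _ ha hb
  | inv a _ ha =>
    have : u * a⁻¹ * u⁻¹ = (u * a * u⁻¹)⁻¹ := by group
    rw [this]; exact Subgroup.inv_mem _ ha

lemma TGrp_le_of_UT {M : Subgroup (V ≃ₗ[F] V)} (hM : UT h M) : TGrp σ f ≤ M := by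
  refine (Subgroup.closure_le _).2 ?_
  rintro g ⟨v, a, hv, ha, hg⟩
  obtain ⟨h0, hm⟩ := hM v hv a ha
  have : g = LinearEquiv.transvection h0 := by
    ext x
    rw [hg, LinearEquiv.transvection.apply, LinearMap.smul_apply, UF.hat_apply, smul_eq_mul]
  rw [SetLike.mem_coe, this]; exact hm

/-- One transvection moving `x` to `w`. -/
lemma exists_TGrp_map {x w : V} {s : F} (hxw : f x x = f w w) (hs : f x w = f x x + s)
    (hs1 : σ s = -s) (hs0 : s ≠ 0) : ∃ t ∈ TGrp σ f, t x = w := by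
  have hwx : f w x = f x x - s := by rw [h.herm, hs, map_add, h.self_fixed, hs1]; ring
  have hv : f (w - x) (w - x) = 0 := by
    have e : w - x = w + (-1 : F) • x := by module
    rw [e, h.add_left, h.add_right, h.add_right, h.smul_left, h.smul_left, h.smul_right,
      h.smul_right, map_neg, map_one, hs, hwx, ← hxw]
    ring
  have ha : σ s⁻¹ = -s⁻¹ := by rw [map_inv₀, hs1, inv_neg]
  obtain ⟨t, ht⟩ := exists_sim h (z := w - x) (l := s⁻¹) (by rw [ha, hv]; ring)
  refine ⟨t, Subgroup.subset_closure ⟨w - x, s⁻¹, hv, ha, ht⟩, ?_⟩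
  have e : f x (w - x) = s := by
    have e : w - x = w + (-1 : F) • x := by module
    rw [e, h.add_right, h.smul_right, map_neg, map_one, hs]; ring
  rw [ht, e, inv_mul_cancel₀ hs0]
  module

end basic

section gen

variable {F V : Type*} [Field F] [Finite F] [AddCommGroup V] [Module F V] [FiniteDimensional F V]
variable {σ : F ≃+* F} {f : V → V → F} (h : UF σ f)
include h

omit h [Finite F] [FiniteDimensional F V] in
lemma exists_dual_pair {z y : V} (h1 : z ∉ Submodule.span F {y}) (h2 : y ∉ Submodule.span F {z})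
    (a b : F) : ∃ φ : Dual F V, φ z = a ∧ φ y = b := by
  obtain ⟨φ₁, hφ₁, hφ₁'⟩ := Submodule.exists_dual_map_eq_bot_of_notMem h1 inferInstance
  obtain ⟨φ₂, hφ₂, hφ₂'⟩ := Submodule.exists_dual_map_eq_bot_of_notMem h2 inferInstance
  have e1 : φ₁ y = 0 := by
    have : φ₁ y ∈ (Submodule.span F {y}).map φ₁ :=
      Submodule.mem_map_of_mem (Submodule.mem_span_singleton_self y)
    rw [hφ₁'] at this
    simpa using this
  have e2 : φ₂ z = 0 := by
    have : φ₂ z ∈ (Submodule.span F {z}).map φ₂ :=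
      Submodule.mem_map_of_mem (Submodule.mem_span_singleton_self z)
    rw [hφ₂'] at this
    simpa using this
  refine ⟨(a / φ₁ z) • φ₁ + (b / φ₂ y) • φ₂, ?_, ?_⟩
  · simp [e2, hφ₁]
  · simp [e1, hφ₂]

/-- The group generated by the unitary transvections is transitive on anisotropic points. -/
lemma exists_TGrp_aniso (hn : 7 ≤ finrank F V) {z z₀ : V} (hz : f z z ≠ 0) (hz₀ : f z₀ z₀ ≠ 0) :
    ∃ t ∈ TGrp σ f, ∃ c : F, t z = c • z₀ := by
  obtain ⟨c, hc⟩ := exists_norm σ h.ne_refl h.involutive (f z z / f z₀ z₀)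
    (by rw [map_div₀, h.self_fixed, h.self_fixed])
  set y := c • z₀ with hy
  have hyy : f y y = f z z := by
    rw [hy, h.smul_left, h.smul_right, ← mul_assoc, hc]; field_simp
  by_cases hdep : z ∈ Submodule.span F {y}
  · obtain ⟨d, hd⟩ := Submodule.mem_span_singleton.1 hdep
    exact ⟨1, Subgroup.one_mem _, d * c, by
      change z = _
      rw [← hd, hy, smul_smul]⟩
  have hdep' : y ∉ Submodule.span F {z} := by
    intro hcon
    obtain ⟨e, he⟩ := Submodule.mem_span_singleton.1 hcon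
    apply hdep
    have he0 : e ≠ 0 := by
      rintro rfl
      rw [zero_smul] at he
      rw [← he, h.zero_left] at hyy
      exact hz hyy.symm
    rw [Submodule.mem_span_singleton]
    exact ⟨e⁻¹, by rw [← he, smul_smul, inv_mul_cancel₀ he0, one_smul]⟩
  obtain ⟨s, hs0, hs⟩ := exists_skew σ h.ne_refl h.involutive
  obtain ⟨φ, hφz, hφy⟩ := exists_dual_pair hdep hdep' (f z z + s) (f z z + s)
  obtain ⟨w₀, hw₀⟩ := h.exists_hat_eq φ
  have hzw₀ : f z w₀ = f z z + s := by rw [← hφz, ← hw₀]; rfl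
  have hyw₀ : f y w₀ = f z z + s := by rw [← hφy, ← hw₀]; rfl
  obtain ⟨u₀, hu₀, hu₀0⟩ := h.hform.exists_perp_aniso ![z, y, w₀] (by omega)
  have hu1 : f u₀ z = 0 := hu₀ 0
  have hu2 : f u₀ y = 0 := hu₀ 1
  have hu3 : f u₀ w₀ = 0 := hu₀ 2
  obtain ⟨d, hd⟩ := exists_norm σ h.ne_refl h.involutive ((f z z - f w₀ w₀) / f u₀ u₀)
    (by rw [map_div₀, map_sub, h.self_fixed, h.self_fixed, h.self_fixed])
  set w := w₀ + d • u₀ with hw
  have hww : f w w = f z z := by
    rw [hw, h.add_left, h.add_right, h.add_right, h.smul_left, h.smul_left, h.smul_right,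
      h.smul_right, hu3, h.herm w₀ u₀, hu3, map_zero]
    have : d * (σ d * f u₀ u₀) = f z z - f w₀ w₀ := by
      rw [← mul_assoc, hd]; field_simp
    rw [this]; ring
  have hzw : f z w = f z z + s := by
    rw [hw, h.add_right, h.smul_right, h.herm z u₀, hu1, hzw₀]; simp
  have hyw : f y w = f y y + s := by
    rw [hw, h.add_right, h.smul_right, h.herm y u₀, hu2, hyw₀, hyy]; simp
  obtain ⟨t₁, ht₁, ht₁z⟩ := exists_TGrp_map h hww.symm hzw hs hs0
  obtain ⟨t₂, ht₂, ht₂y⟩ := exists_TGrp_map h (hyy.trans hww.symm) hyw hs hs0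
  refine ⟨t₂⁻¹ * t₁, Subgroup.mul_mem _ (Subgroup.inv_mem _ ht₂) ht₁, c, ?_⟩
  rw [LinearEquiv.mul_apply, ht₁z, ← ht₂y, ← LinearEquiv.mul_apply, inv_mul_cancel]
  rfl

end gen

section refl

variable {F V : Type*} [Field F] [AddCommGroup V] [Module F V]
variable {σ : F ≃+* F} {f : V → V → F}

/-- The isometries fixing the hyperplane orthogonal to `z₀` pointwise. -/
def RGrp (f : V → V → F) (z₀ : V) : Subgroup (V ≃ₗ[F] V) where
  carrier := {g | g ∈ UGrp f ∧ ∀ x, f x z₀ = 0 → g x = x}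
  mul_mem' := by
    rintro a b ⟨ha, ha'⟩ ⟨hb, hb'⟩
    refine ⟨Subgroup.mul_mem _ ha hb, fun x hx => ?_⟩
    rw [LinearEquiv.mul_apply, hb' x hx, ha' x hx]
  one_mem' := ⟨Subgroup.one_mem _, fun x _ => rfl⟩
  inv_mem' := by
    rintro a ⟨ha, ha'⟩
    refine ⟨Subgroup.inv_mem _ ha, fun x hx => ?_⟩
    conv_lhs => rw [← ha' x hx]
    rw [← LinearEquiv.mul_apply, inv_mul_cancel]
    rfl

variable (h : UF σ f)
include h

lemma RGrp_eq_one [FiniteDimensional F V] {z₀ : V} (hz₀ : f z₀ z₀ ≠ 0) {r : V ≃ₗ[F] V}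
    (hr : r ∈ RGrp f z₀) (hdet : r ∈ slGrp F V) : r = 1 := by
  obtain ⟨hr1, hr2⟩ := hr
  set ν := f z₀ z₀ with hν
  set c := f (r z₀) z₀ / ν with hc
  have hdec : ∀ x, f (x - (f x z₀ / ν) • z₀) z₀ = 0 := by
    intro x
    have e : x - (f x z₀ / ν) • z₀ = x + (-(f x z₀ / ν)) • z₀ := by module
    rw [e, h.add_left, h.smul_left, ← hν]
    field_simp
    ring
  have hrz : r z₀ = c • z₀ := by
    have h0 : r z₀ - c • z₀ = 0 := by
      by_contra hne
      obtain ⟨x, hx⟩ := h.nondeg _ hne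
      apply hx
      have e1 : f z₀ (r z₀ - c • z₀) = 0 := by
        rw [h.herm, hc, hdec (r z₀), map_zero]
      have e2 : f (x - (f x z₀ / ν) • z₀) (r z₀ - c • z₀) = 0 := by
        have e : r z₀ - c • z₀ = r z₀ + (-c) • z₀ := by module
        rw [e, h.add_right, h.smul_right, hdec x, mul_zero, add_zero]
        conv_lhs => rw [← hr2 _ (hdec x)]
        rw [hr1, hdec x]
      have e3 : x = (x - (f x z₀ / ν) • z₀) + (f x z₀ / ν) • z₀ := by module
      rw [e3, h.add_left, e2, h.smul_left, e1]; ring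
    exact sub_eq_zero.1 h0
  have hform : ∀ x, r x = x + ((c - 1) / ν * f x z₀) • z₀ := by
    intro x
    have e3 : x = (x - (f x z₀ / ν) • z₀) + (f x z₀ / ν) • z₀ := by module
    conv_lhs => rw [e3, map_add, map_smul, hr2 _ (hdec x), hrz]
    have : (c - 1) / ν * f x z₀ = (f x z₀ / ν) * c - f x z₀ / ν := by field_simp
    rw [this]
    module
  have hd := det_of_formula h hform
  have hd1 : LinearEquiv.det r = 1 := hdet
  rw [hd1, ← hν] at hd
  have hc1 : c = 1 := by
    have : (c - 1) / ν * ν = c - 1 := by field_simp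
    rw [this] at hd
    simp at hd
    linear_combination -hd
  ext x
  rw [hform, hc1]; simp

end refl

section main

variable {F V : Type*} [Field F] [Finite F] [AddCommGroup V] [Module F V] [FiniteDimensional F V]
variable {σ : F ≃+* F} {f : V → V → F} (h : UF σ f)
include h

lemma mul_mem_TR (hn : 7 ≤ finrank F V) {z₀ : V} (hz₀ : f z₀ z₀ ≠ 0) {s : V ≃ₗ[F] V} {z : V}
    {l : F} (hl : l + σ l + l * σ l * f z z = 0) (hs : ∀ x, s x = x + (l * f x z) • z)
    {g : V ≃ₗ[F] V} (hg : ∃ t ∈ TGrp σ f, ∃ r ∈ RGrp f z₀, g = t * r) :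
    ∃ t ∈ TGrp σ f, ∃ r ∈ RGrp f z₀, s * g = t * r := by
  obtain ⟨t, ht, r, hr, rfl⟩ := hg
  by_cases hz : f z z = 0
  · refine ⟨s * t, Subgroup.mul_mem _ (Subgroup.subset_closure ⟨z, l, hz, ?_, hs⟩) ht, r, hr,
      by group⟩
    rw [hz] at hl
    linear_combination hl
  · obtain ⟨t₁, ht₁, c, hc⟩ := exists_TGrp_aniso h hn hz hz₀
    have hsU : s ∈ UGrp f := mem_UGrp_of_formula h hl hs
    have ht₁U := TGrp_le_UGrp h ht₁
    set r' := t₁ * s * t₁⁻¹ with hr'
    have hr'R : r' ∈ RGrp f z₀ := by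
      refine ⟨mul_mem (mul_mem ht₁U hsU) (inv_mem ht₁U), fun x hx => ?_⟩
      rw [hr', LinearEquiv.mul_apply, LinearEquiv.mul_apply, hs, UGrp_inv_left ht₁U, hc,
        h.smul_right, hx, mul_zero, mul_zero, zero_smul, add_zero, ← LinearEquiv.mul_apply,
        mul_inv_cancel]
      rfl
    refine ⟨t₁⁻¹ * (r' * (t₁ * t) * r'⁻¹), ?_, r' * r, mul_mem hr'R hr, ?_⟩
    · exact mul_mem (inv_mem ht₁) (TGrp_conj hr'R.1 (mul_mem ht₁ ht))
    · rw [hr']; group

omit [Finite F] [FiniteDimensional F V] in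
lemma exists_ne_of_ne_one {g : V ≃ₗ[F] V} (hg1 : g ≠ 1) : ∃ x, f x (g x - x) ≠ 0 := by
  by_contra hcon
  push Not at hcon
  have key : ∀ (c : F) (x y : V), σ c * f x (g y - y) + c * f y (g x - x) = 0 := by
    intro c x y
    have := hcon (x + c • y)
    have e : g (x + c • y) - (x + c • y) = (g x - x) + c • (g y - y) := by
      rw [map_add, map_smul]; module
    rw [e, h.add_left, h.add_right, h.add_right, h.smul_left, h.smul_left, h.smul_right,
      h.smul_right, hcon x, hcon y] at this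
    linear_combination this
  obtain ⟨b, hb⟩ := h.hform.ne_id
  apply hg1
  ext y
  by_contra hne
  obtain ⟨x, hx⟩ := h.nondeg (g y - y) (sub_ne_zero.2 hne)
  apply hx
  have e1 := key 1 x y
  have e2 := key b x y
  rw [map_one] at e1
  have : (σ b - b) * f x (g y - y) = 0 := by linear_combination e2 - b * e1
  rcases mul_eq_zero.1 this with h0 | h0
  · exact absurd (sub_eq_zero.1 h0) hb
  · exact h0

lemma mem_TR (hn : 7 ≤ finrank F V) {z₀ : V} (hz₀ : f z₀ z₀ ≠ 0) : ∀ (k : ℕ) (g : V ≃ₗ[F] V),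
    g ∈ UGrp f → finrank F V ≤ finrank F (LinearMap.fixedSubmodule (g : V →ₗ[F] V)) + k →
    ∃ t ∈ TGrp σ f, ∃ r ∈ RGrp f z₀, g = t * r := by
  intro k
  induction k with
  | zero =>
    intro g hg hk
    have htop : LinearMap.fixedSubmodule (g : V →ₗ[F] V) = ⊤ :=
      Submodule.eq_top_of_finrank_eq (le_antisymm (Submodule.finrank_le _) (by omega))
    have hg1 : g = 1 := by
      ext x
      have : x ∈ LinearMap.fixedSubmodule (g : V →ₗ[F] V) := by rw [htop]; trivial
      exact LinearMap.mem_fixedSubmodule_iff.1 this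
    exact ⟨1, one_mem _, 1, one_mem _, by rw [hg1]; simp⟩
  | succ k ih =>
    intro g hg hk
    by_cases hg1 : g = 1
    · exact ⟨1, one_mem _, 1, one_mem _, by rw [hg1]; simp⟩
    obtain ⟨x, hx⟩ := exists_ne_of_ne_one h hg1
    set z := g x - x with hz
    set β := f x z with hβ
    have hσβ : σ β = f z x := by rw [hβ, ← h.herm]
    have hσβ0 : σ β ≠ 0 := by rwa [map_ne_zero]
    have ez : z = g x + (-1 : F) • x := by rw [hz]; module
    have key2 : β + σ β + f z z = 0 := by
      rw [hσβ, hβ]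
      have hgx : f (g x) (g x) = f x x := hg x x
      simp only [ez, h.add_left, h.add_right, h.smul_left, h.smul_right, map_neg, map_one, hgx]
      ring
    have hl : β⁻¹ + σ β⁻¹ + β⁻¹ * σ β⁻¹ * f z z = 0 := by
      rw [map_inv₀]
      field_simp
      linear_combination key2
    obtain ⟨s, hs⟩ := exists_sim h hl
    have hsU : s ∈ UGrp f := mem_UGrp_of_formula h hl hs
    have hsx : s x = g x := by
      rw [hs, ← hβ, inv_mul_cancel₀ hx, hz]; module
    have hfix : ∀ y, g y = y → s⁻¹ y = y := by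
      intro y hy
      have h0 : f y z = 0 := by
        rw [ez, h.add_right, h.smul_right, map_neg, map_one]
        conv_lhs => rw [← hy, hg, hy]
        ring
      have h1 : s y = y := by rw [hs, h0]; simp
      conv_lhs => rw [← h1]
      rw [← LinearEquiv.mul_apply, inv_mul_cancel]
      rfl
    have hlt : LinearMap.fixedSubmodule (g : V →ₗ[F] V) <
        LinearMap.fixedSubmodule ((s⁻¹ * g : V ≃ₗ[F] V) : V →ₗ[F] V) := by
      refine lt_of_le_of_ne ?_ ?_
      · intro y hy
        rw [LinearMap.mem_fixedSubmodule_iff] at hy ⊢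
        have hy' : g y = y := hy
        change s⁻¹ (g y) = y
        rw [hy', hfix y hy']
      · intro heq
        have hxm : x ∈ LinearMap.fixedSubmodule ((s⁻¹ * g : V ≃ₗ[F] V) : V →ₗ[F] V) := by
          rw [LinearMap.mem_fixedSubmodule_iff]
          change s⁻¹ (g x) = x
          rw [← hsx, ← LinearEquiv.mul_apply, inv_mul_cancel]
          rfl
        rw [← heq, LinearMap.mem_fixedSubmodule_iff] at hxm
        have hxm' : g x = x := hxm
        apply hx
        rw [hβ, hz, hxm', sub_self, h.zero_right]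
    have hfr := Submodule.finrank_lt_finrank_of_lt hlt
    have := mul_mem_TR h hn hz₀ hl hs
      (ih (s⁻¹ * g) (mul_mem (inv_mem hsU) hg) (by omega))
    rwa [mul_inv_cancel_left] at this

/-- The special unitary group is generated by the unitary transvections. -/
theorem UGrp_inf_slGrp_le_TGrp (hn : 7 ≤ finrank F V) : UGrp f ⊓ slGrp F V ≤ TGrp σ f := by
  intro g hg
  obtain ⟨z₀, -, hz₀⟩ := h.hform.exists_perp_aniso (k := 0) ![] (by omega)
  obtain ⟨t, ht, r, hr, rfl⟩ := mem_TR h hn hz₀ (finrank F V) g hg.1 (by omega)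
  have hrdet : r ∈ slGrp F V := by
    have e : r = t⁻¹ * (t * r) := by group
    rw [e]
    exact mul_mem (inv_mem (TGrp_le_slGrp h ht)) hg.2
  rw [RGrp_eq_one h hz₀ hr hrdet, mul_one]
  exact ht

theorem UGrp_inf_slGrp_le (hn : 7 ≤ finrank F V) {M : Subgroup (V ≃ₗ[F] V)} (hM : UT h M) :
    UGrp f ⊓ slGrp F V ≤ M :=
  (UGrp_inf_slGrp_le_TGrp h hn).trans (TGrp_le_of_UT h hM)

end main

end Cfsg.Agent.Lib.Helper97
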