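import Mathlib
import Cfsg.Agent.Lib.Helper97.SUGen
import Cfsg.Agent.Lib.Helper95.SympMax

set_option autoImplicit false

namespace Cfsg.Agent.Lib.Helper97

open Cfsg.Agent.Lib.Helper95 Module QuadraticAlgebra

section general

variable {F V : Type*} [Field F] [AddCommGroup V] [Module F V] (a b : F)

/-- The module structure over the quadratic algebra defined by an endomorphism `θ` with
`θ² = a + b θ`. -/
@[reducible] def qModule (θ : Module.End F V) (hθ : θ * θ = a • 1 + b • θ) :
    Module (QuadraticAlgebra F a b) V :=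
  Module.compHom V
    (QuadraticAlgebra.lift ⟨θ, hθ⟩ : QuadraticAlgebra F a b →ₐ[F] Module.End F V).toRingHom

lemma qModule_smul (θ : Module.End F V) (hθ : θ * θ = a • 1 + b • θ) (k : QuadraticAlgebra F a b)
    (x : V) : (letI := qModule a b θ hθ; k • x) = k.re • x + k.im • θ x := by
  letI := qModule a b θ hθ
  change (QuadraticAlgebra.lift ⟨θ, hθ⟩ : QuadraticAlgebra F a b →ₐ[F] Module.End F V) k x = _
  simp [QuadraticAlgebra.lift_apply_apply]

lemma qModule_tower (θ : Module.End F V) (hθ : θ * θ = a • 1 + b • θ) :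
    (letI := qModule a b θ hθ; IsScalarTower F (QuadraticAlgebra F a b) V) := by
  letI := qModule a b θ hθ
  refine ⟨fun c k x => ?_⟩
  rw [qModule_smul, qModule_smul]
  simp [smul_add, smul_smul]

variable {a b}
variable [Module (QuadraticAlgebra F a b) V] [IsScalarTower F (QuadraticAlgebra F a b) V]

lemma qsmul_eq (k : QuadraticAlgebra F a b) (x : V) :
    k • x = k.re • x + k.im • ((ω : QuadraticAlgebra F a b) • x) := by
  conv_lhs => rw [← QuadraticAlgebra.mk_eta k, QuadraticAlgebra.mk_eq_add_smul_omega]
  rw [add_smul, algebraMap_smul, smul_assoc]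

lemma omega_omega_smul (x : V) :
    (ω : QuadraticAlgebra F a b) • ((ω : QuadraticAlgebra F a b) • x) =
      a • x + b • ((ω : QuadraticAlgebra F a b) • x) := by
  rw [smul_smul, QuadraticAlgebra.omega_mul_omega_eq_mk, qsmul_eq]

lemma omega_smul_smul (c : F) (x : V) :
    (ω : QuadraticAlgebra F a b) • (c • x) = c • ((ω : QuadraticAlgebra F a b) • x) :=
  smul_comm _ _ _

end general

end Cfsg.Agent.Lib.Helper97
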