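import Mathlib
import Cfsg.Agent.Lib.Helper97.QExt

set_option autoImplicit false

namespace Cfsg.Agent.Lib.Helper97

open Cfsg.Agent.Lib.Helper95 Module QuadraticAlgebra

section geo

variable {F V : Type*} [Field F] [Finite F] [AddCommGroup V] [Module F V] [FiniteDimensional F V]
variable {σ : F ≃+* F} {f : V → V → F} (h : UF σ f)
include h

namespace UF

/-- isotropic vectors span (dimension at least two). -/
lemma top_of_iso (hn : 2 ≤ finrank F V) (Y : Submodule F V) (hY : ∀ v, f v v = 0 → v ∈ Y) :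
    Y = ⊤ := by
  by_contra hne
  obtain ⟨χ, hχ0, hχ⟩ := Submodule.exists_le_ker_of_lt_top _ (lt_top_iff_ne_top.2 hne)
  obtain ⟨x, hx⟩ : ∃ x, χ x ≠ 0 := by
    by_contra hcon
    push Not at hcon
    exact hχ0 (LinearMap.ext hcon)
  obtain ⟨v, -, hv, hχv⟩ := h.exists_iso_ne ⊤ (by simp; omega) χ x trivial hx
  exact hχv (hχ (hY v hv))

lemma exists_iso_perp_ne (hn : 4 ≤ finrank F V) {a b : V} (hab : a ∉ Submodule.span F {b}) :
    ∃ w, f w w = 0 ∧ f w b = 0 ∧ f w a ≠ 0 := by
  obtain ⟨x, hxb, hxa⟩ : ∃ x, f x b = 0 ∧ f x a ≠ 0 := by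
    by_contra hcon
    push Not at hcon
    apply hab
    have := h.hform.mem_span_of_perp (k := 1) ![b] (w := a) (fun z hz => hcon z (hz 0))
    simpa using this
  have h1 := finrank_ker_hat h b
  obtain ⟨w, hwS, hww, hwa⟩ := h.exists_iso_ne (LinearMap.ker (h.hat b)) (by omega) (h.hat a) x
    (by simpa using hxb) (by simpa using hxa)
  exact ⟨w, hww, by simpa using hwS, by simpa using hwa⟩

lemma exists_iso_val (hn : 4 ≤ finrank F V) {a b : V} (hab : a ∉ Submodule.span F {b}) (κ : F) :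
    ∃ w, f w w = 0 ∧ f w b = 0 ∧ f w a = κ := by
  obtain ⟨w, hww, hwb, hwa⟩ := h.exists_iso_perp_ne hn hab
  refine ⟨(κ / f w a) • w, ?_, ?_, ?_⟩
  · rw [h.smul_left, h.smul_right, hww]; ring
  · rw [h.smul_left, hwb]; ring
  · rw [h.smul_left, div_mul_cancel₀ _ hwa]

lemma exists_iso_val' (hn : 4 ≤ finrank F V) {a : V} (ha : a ≠ 0) (κ : F) :
    ∃ w, f w w = 0 ∧ f w a = κ := by
  obtain ⟨w, hww, -, hwa⟩ := h.exists_iso_val hn (a := a) (b := 0) (by simpa using ha) κ
  exact ⟨w, hww, hwa⟩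

lemma exists_iso_perp2 (hn : 6 ≤ finrank F V) (v v' : V) :
    ∃ u, f u u = 0 ∧ f u v = 0 ∧ f u v' = 0 ∧ u ∉ Submodule.span F {v} ∧
      u ∉ Submodule.span F {v'} := by
  obtain ⟨p, hp, hpp⟩ := h.hform.exists_perp_aniso (k := 2) ![v, v'] (by omega)
  have hpv : f p v = 0 := hp 0
  have hpv' : f p v' = 0 := hp 1
  have h1 := finrank_ker_hat h v
  have h2 := UF.finrank_inf_ker (LinearMap.ker (h.hat v)) (h.hat v')
  obtain ⟨u, huS, huu, hup⟩ := h.exists_iso_ne (LinearMap.ker (h.hat v) ⊓ LinearMap.ker (h.hat v'))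
    (by omega) (h.hat p) p ⟨by simpa using hpv, by simpa using hpv'⟩ (by simpa using hpp)
  have huv : f u v = 0 := by simpa using huS.1
  have huv' : f u v' = 0 := by simpa using huS.2
  have hup' : f u p ≠ 0 := by simpa using hup
  refine ⟨u, huu, huv, huv', ?_, ?_⟩
  · intro hmem
    obtain ⟨c, rfl⟩ := Submodule.mem_span_singleton.1 hmem
    apply hup'
    rw [h.smul_left, h.hform.eq_zero_comm.1 hpv, mul_zero]
  · intro hmem
    obtain ⟨c, rfl⟩ := Submodule.mem_span_singleton.1 hmem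
    apply hup'
    rw [h.smul_left, h.hform.eq_zero_comm.1 hpv', mul_zero]

end UF

end geo

section semilin

variable {F V : Type*} [Field F] [Finite F] [AddCommGroup V] [Module F V] {a b : F}
variable [Fact (∀ r : F, r ^ 2 ≠ a + b * r)]
variable [Module (QuadraticAlgebra F a b) V] [IsScalarTower F (QuadraticAlgebra F a b) V]
variable [FiniteDimensional (QuadraticAlgebra F a b) V]
variable {σ : QuadraticAlgebra F a b ≃+* QuadraticAlgebra F a b}
variable {f : V → V → QuadraticAlgebra F a b}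

omit [Finite F] [FiniteDimensional (QuadraticAlgebra F a b) V] in
lemma line_image {g : V ≃ₗ[F] V} {v : V} (hv : v ≠ 0) {k : QuadraticAlgebra F a b}
    (hk : g ((ω : QuadraticAlgebra F a b) • v) = k • g v) (μ : QuadraticAlgebra F a b) :
    ∃ μ' : QuadraticAlgebra F a b, μ • g v = g (μ' • v) := by
  have hk0 : k.im ≠ 0 := by
    intro h0
    rw [qsmul_eq k, h0, zero_smul, add_zero, ← map_smul] at hk
    have h1 := g.injective hk
    have h2 : ((ω : QuadraticAlgebra F a b) - algebraMap F _ k.re) • v = 0 := by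
      rw [sub_smul, algebraMap_smul, h1, sub_self]
    rcases smul_eq_zero.1 h2 with h3 | h3
    · have := congrArg QuadraticAlgebra.im h3
      simp at this
    · exact hv h3
  refine ⟨⟨μ.re - μ.im / k.im * k.re, μ.im / k.im⟩, ?_⟩
  rw [qsmul_eq (⟨μ.re - μ.im / k.im * k.re, μ.im / k.im⟩ : QuadraticAlgebra F a b) v, map_add,
    map_smul, map_smul, hk, qsmul_eq k, qsmul_eq μ]
  obtain ⟨u', hu'⟩ : ∃ u', u' = (ω : QuadraticAlgebra F a b) • g v := ⟨_, rfl⟩
  rw [← hu']
  simp only
  match_scalars <;> field_simp <;> ring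

instance : Finite (QuadraticAlgebra F a b) := Finite.of_equiv _ (QuadraticAlgebra.equivProd a b).symm

/-- An `F`-linear bijection which is not semilinear moves some isotropic line off the lines. -/
lemma exists_iso_not_line (h : UF σ f) (hn : 6 ≤ finrank (QuadraticAlgebra F a b) V)
    (g : V ≃ₗ[F] V)
    (hg : ¬ ∃ k : QuadraticAlgebra F a b, ∀ x, g ((ω : QuadraticAlgebra F a b) • x) = k • g x) :
    ∃ v, f v v = 0 ∧ ∀ k : QuadraticAlgebra F a b, g ((ω : QuadraticAlgebra F a b) • v) ≠ k • g v := by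
  by_contra hcon
  push Not at hcon
  -- perpendicular independent pairs
  have claim2 : ∀ v v' : V, v ≠ 0 → f v v = 0 → f v' v' = 0 → f v' v = 0 →
      v' ∉ Submodule.span (QuadraticAlgebra F a b) {v} → ∀ k k' : QuadraticAlgebra F a b,
      g ((ω : QuadraticAlgebra F a b) • v) = k • g v →
      g ((ω : QuadraticAlgebra F a b) • v') = k' • g v' → k = k' := by
    intro v v' hv0 hv hv' hvv' hns k k' hk hk'
    have hsum : f (v + v') (v + v') = 0 := by
      rw [h.add_left, h.add_right, h.add_right, hv, hv', hvv', h.hform.eq_zero_comm.1 hvv']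
      ring
    obtain ⟨k'', hk''⟩ := hcon (v + v') hsum
    rw [smul_add, map_add, map_add, hk, hk', smul_add] at hk''
    have e1 : (k' - k'') • g v' = (k'' - k) • g v := by
      rw [sub_smul, sub_smul]
      linear_combination (norm := module) hk''
    have e2 : k' - k'' = 0 := by
      by_contra hne
      obtain ⟨μ', hμ'⟩ := line_image hv0 hk ((k' - k'')⁻¹ * (k'' - k))
      have e3 : g v' = g (μ' • v) := by
        rw [← hμ', mul_smul, ← e1, smul_smul, inv_mul_cancel₀ hne, one_smul]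
      exact hns (Submodule.mem_span_singleton.2 ⟨μ', (g.injective e3).symm⟩)
    rw [e2, zero_smul] at e1
    have hgv : g v ≠ 0 := fun h0 => hv0 (by simpa using h0)
    have e4 : k'' - k = 0 := (smul_eq_zero.1 e1.symm).resolve_right hgv
    rw [sub_eq_zero] at e2 e4
    rw [← e4, e2]
  obtain ⟨v₀, hv₀0, hv₀, -⟩ := h.hform.exists_iso_perp (exists_norm σ h.ne_refl h.involutive)
    (k := 0) ![] (by omega)
  obtain ⟨k₀, hk₀⟩ := hcon v₀ hv₀
  have claim3 : ∀ v, f v v = 0 → g ((ω : QuadraticAlgebra F a b) • v) = k₀ • g v := by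
    intro v hv
    by_cases hv0 : v = 0
    · simp [hv0]
    obtain ⟨k, hk⟩ := hcon v hv
    obtain ⟨u, huu, huv₀, huv, hu1, hu2⟩ := h.exists_iso_perp2 hn v₀ v
    obtain ⟨k', hk'⟩ := hcon u huu
    have e1 := claim2 v₀ u hv₀0 hv₀ huu huv₀ hu1 k₀ k' hk₀ hk'
    have e2 := claim2 v u hv0 hv huu huv hu2 k k' hk hk'
    rw [hk, e2, e1]
  apply hg
  refine ⟨k₀, ?_⟩
  let Y : Submodule (QuadraticAlgebra F a b) V :=
    { carrier := {x | ∀ c : QuadraticAlgebra F a b,
        g ((ω : QuadraticAlgebra F a b) • (c • x)) = k₀ • g (c • x)}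
      add_mem' := by
        intro x y hx hy c
        rw [smul_add, smul_add, map_add, map_add, hx c, hy c, smul_add]
      zero_mem' := by intro c; simp
      smul_mem' := by
        intro c x hx c'
        have := hx (c' * c)
        rwa [mul_smul] at this }
  have hY : Y = ⊤ := h.top_of_iso (by omega) Y (fun v hv c => claim3 _ (by
    rw [h.smul_left, h.smul_right, hv]; ring))
  intro x
  have hx : x ∈ Y := by rw [hY]; trivial
  simpa using hx 1

end semilin

end Cfsg.Agent.Lib.Helper97
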