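import Cfsg.Agent.Lib.Helper97.SUGen
import Cfsg.Agent.Lib.Helper95.Glue4
import Cfsg.Agent.Lib.Helper17.Herm

set_option autoImplicit false

/-! Glue between `Cfsg.hermForm`, `Cfsg.GU` and the abstract unitary forms `UF`. -/

namespace Cfsg.Agent.Lib.Helper97

open Module Cfsg.Agent.Lib.Helper95 Cfsg.Agent.Lib.Helper17

section

variable {F : Type*} [Field F] [Fintype F] {q : ℕ}

/-- The involution `x ↦ x ^ q` of the field with `q ^ 2` elements. -/
def sigmaQ (hF : Fintype.card F = q ^ 2) : F ≃+* F where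
  toFun x := x ^ q
  invFun x := x ^ q
  left_inv x := pow_q_pow_q hF x
  right_inv x := pow_q_pow_q hF x
  map_mul' x y := mul_pow x y q
  map_add' x y := add_pow_q hF x y

@[simp] lemma sigmaQ_apply (hF : Fintype.card F = q ^ 2) (x : F) : sigmaQ hF x = x ^ q := rfl

lemma sigmaQ_ne_refl (hF : Fintype.card F = q ^ 2) : sigmaQ hF ≠ RingEquiv.refl F := by
  classical
  intro h
  have hq := two_le_of_card_sq hF
  obtain ⟨g, hg⟩ := IsCyclic.exists_generator (α := Fˣ)
  have hord : orderOf g = q ^ 2 - 1 := by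
    rw [orderOf_eq_card_of_forall_mem_zpowers hg, Nat.card_eq_fintype_card, Fintype.card_units, hF]
  have h1 : (g : F) ^ q = g := by
    have := congrArg (fun f : F ≃+* F => f g) h
    simpa using this
  have h2 : g ^ (q - 1) = 1 := by
    apply Units.ext
    have h3 : (g : F) ^ (q - 1) * g = 1 * g := by
      rw [← pow_succ, Nat.sub_add_cancel (by omega), h1, one_mul]
    simpa using mul_right_cancel₀ g.ne_zero h3
  have h3 := orderOf_dvd_of_pow_eq_one h2
  rw [hord] at h3
  have h4 := Nat.le_of_dvd (by omega) h3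
  have h5 : q < q ^ 2 := by nlinarith
  omega

lemma hermUF (hF : Fintype.card F = q ^ 2) (n : ℕ) : UF (sigmaQ hF) (Cfsg.hermForm n F q) where
  ne_refl := sigmaQ_ne_refl hF
  involutive := pow_q_pow_q hF
  add_left := fun x y v => hermForm_add_left q n x y v
  smul_left := fun c x v => hermForm_smul_left q n c x v
  herm := fun v w => (hermForm_conj hF n w v).symm
  nondeg := by
    intro v hv
    obtain ⟨i, hi⟩ : ∃ i, v i ≠ 0 := by
      by_contra hcon
      push Not at hcon
      exact hv (funext hcon)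
    exact ⟨Pi.single i 1, by rw [hermForm_single_left]; exact pow_ne_zero _ hi⟩

end

section

variable {F : Type*} [Field F] {q n : ℕ}

lemma mem_GU_iff' (g : Matrix.GeneralLinearGroup (Fin n) F) :
    g ∈ Cfsg.GU n F q ↔ glEquiv g ∈ UGrp (Cfsg.hermForm n F q) := by
  simp only [mem_UGrp, glEquiv_apply]
  rfl

lemma mem_SU_iff' (g : Matrix.GeneralLinearGroup (Fin n) F) :
    g ∈ Cfsg.GU n F q ⊓ Cfsg.Geo.specialLinear (Fin n) F ↔
      glEquiv g ∈ UGrp (Cfsg.hermForm n F q) ⊓ slGrp F (Fin n → F) := by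
  rw [Subgroup.mem_inf, Subgroup.mem_inf, mem_GU_iff', mem_specialLinear_iff']

end

end Cfsg.Agent.Lib.Helper97
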