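import Cfsg.Agent.Lib.Helper97.Siegel
import Cfsg.Agent.Lib.Helper95.SympMax

set_option autoImplicit false

/-! Stabilisers of totally singular subspaces are maximal in the special unitary group. -/

namespace Cfsg.Agent.Lib.Helper97

open Module Cfsg.Agent.Lib.Helper95

section

variable {F V : Type*} [Field F] [AddCommGroup V] [Module F V]
variable {σ : F ≃+* F} {f : V → V → F} (h : UF σ f)
include h

/-- A vector outside `W` is not orthogonal to the whole of `W^⊥`. -/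
lemma exists_perp_ne [FiniteDimensional F V] (W : Submodule F V) {u : V} (hu : u ∉ W) :
    ∃ x, (∀ w ∈ W, f x w = 0) ∧ f x u ≠ 0 := by
  by_contra hcon
  push Not at hcon
  apply hu
  let b := Module.finBasis F W
  have hspan : Submodule.span F (Set.range (fun i => (b i : V))) = W := by
    have h1 := b.span_eq
    have h2 := congrArg (Submodule.map W.subtype) h1
    rw [Submodule.map_span, Submodule.map_top, Submodule.range_subtype, ← Set.range_comp] at h2
    exact h2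
  have := h.hform.mem_span_of_perp (fun i => (b i : V)) (w := u) (by
    intro z hz
    apply hcon z
    intro w hw
    rw [← hspan] at hw
    induction hw using Submodule.span_induction with
    | mem x hx =>
      obtain ⟨i, rfl⟩ := hx
      exact hz i
    | zero => exact h.zero_right z
    | add x y _ _ hx hy => rw [h.add_right, hx, hy, add_zero]
    | smul c x _ hx => rw [h.smul_right, hx, mul_zero])
  rwa [hspan] at this

lemma eq_zero_comm' {x y : V} (hxy : f x y = 0) : f y x = 0 := by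
  rw [h.herm, hxy, map_zero]

lemma ne_zero_comm' {x y : V} (hxy : f x y ≠ 0) : f y x ≠ 0 := fun h0 => hxy (eq_zero_comm' h h0)

end

section

variable {F V : Type*} [Field F] [Finite F] [AddCommGroup V] [Module F V] [FiniteDimensional F V]
variable {σ : F ≃+* F} {f : V → V → F} (h : UF σ f)
include h

theorem su_le_of_singular (hn : 7 ≤ finrank F V) {W : Submodule F V}
    (hW : ∀ u ∈ W, ∀ v ∈ W, f u v = 0) {M : Subgroup (V ≃ₗ[F] V)}
    (hHM : (UGrp f ⊓ slGrp F V) ⊓ stabGrp W ≤ M) {g : V ≃ₗ[F] V} (hgM : g ∈ M)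
    (hgU : g ∈ UGrp f) (hgS : g ∉ stabGrp W) : UGrp f ⊓ slGrp F V ≤ M := by
  -- step 1
  have s1 : ∀ v, f v v = 0 → (∀ w ∈ W, f w v = 0) → GoodV σ f M v := by
    intro v hv hvW a ha t ht
    have hl : a + σ a + a * σ a * f v v = 0 := by rw [ha, hv]; ring
    apply hHM
    refine ⟨⟨mem_UGrp_of_formula h hl ht, ?_⟩, mem_stabGrp_of_forall (fun x hx => ?_)⟩
    · change LinearEquiv.det t = 1
      apply Units.ext
      rw [det_of_formula h ht, hv]; simp
    · rw [ht, hvW x hx]; simpa using hx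
  -- step 2
  have s2 : ∃ v, f v v = 0 ∧ GoodV σ f M v ∧ ∃ e ∈ W, f e v ≠ 0 := by
    by_cases hA : ∃ w₁ ∈ W, ∃ w₂ ∈ W, f w₁ (g w₂) ≠ 0
    · obtain ⟨w₁, hw₁, w₂, hw₂, hne⟩ := hA
      exact ⟨g w₂, by rw [hgU, hW w₂ hw₂ w₂ hw₂],
        (s1 w₂ (hW w₂ hw₂ w₂ hw₂) (fun w hw => hW w hw w₂ hw₂)).map hgM hgU, w₁, hw₁, hne⟩
    · push Not at hA
      have hgi : g⁻¹ ∉ stabGrp W := fun hc => hgS (by simpa using inv_mem hc)
      obtain ⟨w₁, hw₁, hu₁⟩ : ∃ w₁ ∈ W, g⁻¹ w₁ ∉ W := by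
        by_contra hcon
        push Not at hcon
        exact hgi (mem_stabGrp_of_forall hcon)
      set u₁ := g⁻¹ w₁ with hu₁def
      have hgu₁ : g u₁ = w₁ := by
        rw [hu₁def, ← LinearEquiv.mul_apply, mul_inv_cancel]; rfl
      have hu₁W : ∀ w ∈ W, f u₁ w = 0 := by
        intro w hw
        rw [hu₁def, UGrp_inv_left hgU]
        exact hA w₁ hw₁ w hw
      have hu₁u₁ : f u₁ u₁ = 0 := by rw [← hgU, hgu₁, hW w₁ hw₁ w₁ hw₁]
      obtain ⟨x, hxW, hxu⟩ := exists_perp_ne h W hu₁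
      obtain ⟨m, hm⟩ := h.exists_iso_add x u₁ (Or.inr (ne_zero_comm' h hxu))
      have hvW : ∀ w ∈ W, f w (x + m • u₁) = 0 := by
        intro w hw
        apply eq_zero_comm' h
        rw [h.add_left, h.smul_left, hxW w hw, hu₁W w hw]; ring
      refine ⟨g (x + m • u₁), by rw [hgU, hm], (s1 _ hm hvW).map hgM hgU, w₁, hw₁, ?_⟩
      rw [← hgu₁, hgU]
      apply ne_zero_comm' h
      rw [h.add_left, h.smul_left, hu₁u₁, mul_zero, add_zero]
      exact hxu
  obtain ⟨v, hvv, hvG, e₀, he₀, he₀v⟩ := s2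
  -- step 3
  have s3 : ∀ v', f v' v' = 0 → (∃ e ∈ W, f e v' ≠ 0) → GoodV σ f M v' := by
    intro v' hv' hex
    obtain ⟨e, heW, hev, hev'⟩ := exists_mem_ne_zero_both W (h.hat v) (h.hat v') ⟨e₀, he₀, he₀v⟩ hex
    rw [UF.hat_apply] at hev hev'
    have hve : f v e ≠ 0 := ne_zero_comm' h hev
    have hve' : f v' e ≠ 0 := ne_zero_comm' h hev'
    obtain ⟨v₁, hv₁⟩ : ∃ v₁, v₁ = (f v e)⁻¹ • v := ⟨_, rfl⟩
    obtain ⟨v₂, hv₂⟩ : ∃ v₂, v₂ = (f v' e)⁻¹ • v' := ⟨_, rfl⟩
    have h11 : f v₁ v₁ = 0 := by rw [hv₁, h.smul_left, h.smul_right, hvv]; ring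
    have h22 : f v₂ v₂ = 0 := by rw [hv₂, h.smul_left, h.smul_right, hv']; ring
    have h1e : f v₁ e = 1 := by rw [hv₁, h.smul_left, inv_mul_cancel₀ hve]
    have h2e : f v₂ e = 1 := by rw [hv₂, h.smul_left, inv_mul_cancel₀ hve']
    have hG1 : GoodV σ f M v₁ := by rw [hv₁]; exact hvG.smul h _
    have ew : v₁ - v₂ = v₁ + (-1 : F) • v₂ := by module
    have hwe : f (v₁ - v₂) e = 0 := by rw [ew, h.add_left, h.smul_left, h1e, h2e]; ring
    have hc : f v₁ v₂ + σ (f v₁ v₂) + f (v₁ - v₂) (v₁ - v₂) = 0 := by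
      rw [← h.herm v₂ v₁]
      simp only [ew, h.add_left, h.add_right, h.smul_left, h.smul_right, map_neg, map_one, h11, h22]
      ring
    obtain ⟨S, hS, hSf⟩ := exists_siegel h (hW e heW e heW) hwe hc
    have hSM : S ∈ M := by
      apply hHM
      refine ⟨hS, mem_stabGrp_of_forall (fun x hx => ?_)⟩
      rw [hSf, hW x hx e heW]
      simp only [neg_zero, zero_smul, add_zero, mul_zero]
      exact W.add_mem hx (W.smul_mem _ heW)
    have hG2 := hG1.map hSM hS.1
    have hSv : S v₁ = v₂ := by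
      rw [hSf, h1e]
      have : f v₁ (v₁ - v₂) + f v₁ v₂ * 1 = 0 := by
        rw [ew, h.add_right, h.smul_right, h11, map_neg, map_one]; ring
      rw [this]; module
    rw [hSv] at hG2
    have := hG2.smul h (f v' e)
    rwa [hv₂, smul_smul, mul_inv_cancel₀ hve', one_smul] at this
  apply UGrp_inf_slGrp_le h hn
  apply UT_of_goodV h
  intro v' hv'
  by_cases hex : ∃ e ∈ W, f e v' ≠ 0
  · exact s3 v' hv' hex
  · push Not at hex
    exact s1 v' hv' hex

theorem exists_su_not_stab (hn : 7 ≤ finrank F V) {W : Submodule F V} (hW0 : W ≠ ⊥)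
    (hW : ∀ u ∈ W, ∀ v ∈ W, f u v = 0) : ∃ g ∈ UGrp f ⊓ slGrp F V, g ∉ stabGrp W := by
  obtain ⟨e, heW, he0⟩ := Submodule.exists_mem_ne_zero_of_ne_bot hW0
  obtain ⟨x, hx⟩ := h.nondeg e he0
  obtain ⟨v, -, hvv, hve⟩ := h.exists_iso_ne ⊤ (by rw [finrank_top]; omega) (h.hat e) x trivial hx
  rw [UF.hat_apply] at hve
  obtain ⟨a, ha0, ha⟩ := exists_skew σ h.ne_refl h.involutive
  have hl : a + σ a + a * σ a * f v v = 0 := by rw [ha, hvv]; ring
  obtain ⟨t, ht⟩ := exists_sim h hl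
  refine ⟨t, ⟨mem_UGrp_of_formula h hl ht, ?_⟩, fun hc => ?_⟩
  · change LinearEquiv.det t = 1
    apply Units.ext
    rw [det_of_formula h ht, hvv]; simp
  · have h1 := (hc e).1 heW
    rw [ht] at h1
    have hev : f e v ≠ 0 := ne_zero_comm' h hve
    have h2 : (a * f e v) • v ∈ W := by
      have := W.sub_mem h1 heW
      simpa using this
    have h3 : v ∈ W := by
      have := W.smul_mem (a * f e v)⁻¹ h2
      rwa [smul_smul, inv_mul_cancel₀ (mul_ne_zero ha0 hev), one_smul] at this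
    exact hev (hW e heW v h3)

end

end Cfsg.Agent.Lib.Helper97
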