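import Cfsg.Agent.Lib.Helper97.SUGen

set_option autoImplicit false

/-! Good isotropic vectors (all unitary transvections with that centre lie in `M`) and Siegel
elements of a unitary group. -/

namespace Cfsg.Agent.Lib.Helper97

open Module Cfsg.Agent.Lib.Helper95

section

variable {F V : Type*} [Field F] [AddCommGroup V] [Module F V]
variable {σ : F ≃+* F} {f : V → V → F} {M : Subgroup (V ≃ₗ[F] V)}

/-- All unitary transvections with centre `v` lie in `M`. -/
def GoodV (σ : F ≃+* F) (f : V → V → F) (M : Subgroup (V ≃ₗ[F] V)) (v : V) : Prop :=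
  ∀ a, σ a = -a → ∀ t : V ≃ₗ[F] V, (∀ x, t x = x + (a * f x v) • v) → t ∈ M

lemma goodV_zero : GoodV σ f M 0 := by
  intro a _ t ht
  have : t = 1 := by
    ext x
    rw [ht]; simp
  rw [this]; exact one_mem _

lemma GoodV.map {v : V} (hv : GoodV σ f M v) {m : V ≃ₗ[F] V} (hm : m ∈ M) (hmU : m ∈ UGrp f) :
    GoodV σ f M (m v) := by
  intro a ha t ht
  have h1 : m⁻¹ * t * m ∈ M := by
    apply hv a ha
    intro x
    rw [LinearEquiv.mul_apply, LinearEquiv.mul_apply, ht, hmU, map_add, map_smul,
      ← LinearEquiv.mul_apply, ← LinearEquiv.mul_apply, inv_mul_cancel]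
    rfl
  have : t = m * (m⁻¹ * t * m) * m⁻¹ := by group
  rw [this]
  exact mul_mem (mul_mem hm h1) (inv_mem hm)

variable (h : UF σ f)
include h

lemma GoodV.smul {v : V} (hv : GoodV σ f M v) (c : F) : GoodV σ f M (c • v) := by
  intro a ha t ht
  apply hv (a * (c * σ c)) (by rw [map_mul, map_mul, h.involutive, ha]; ring) t
  intro x
  rw [ht, h.smul_right, smul_smul]
  congr 2
  ring

lemma GoodV.tv {u v : V} (hu : GoodV σ f M u) (hv : GoodV σ f M v) (hvv : f v v = 0) {a : F}
    (ha : σ a = -a) : GoodV σ f M (u + (a * f u v) • v) := by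
  have hl : a + σ a + a * σ a * f v v = 0 := by rw [ha, hvv]; ring
  obtain ⟨t, ht⟩ := exists_sim h hl
  have := hu.map (hv a ha t ht) (mem_UGrp_of_formula h hl ht)
  rwa [ht] at this

lemma UT_of_goodV (hM : ∀ v, f v v = 0 → GoodV σ f M v) : UT h M := by
  intro v hv a ha
  have h0 : (a • h.hat v) v = 0 := by simp [hv]
  refine ⟨h0, hM v hv a ha _ (fun x => ?_)⟩
  rw [LinearEquiv.transvection.apply, LinearMap.smul_apply, UF.hat_apply, smul_eq_mul]

/-- Every skew element is of the form `x - σ x` with `x` a multiple of a given non-zero `y`. -/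
lemma exists_mul_sub_eq {y κ : F} (hy : y ≠ 0) (hκ : σ κ = -κ) : ∃ c : F, c * y - σ (c * y) = κ := by
  obtain ⟨s, hs0, hs⟩ := exists_skew σ h.ne_refl h.involutive
  obtain ⟨l, hl⟩ := exists_trace σ h.ne_refl h.involutive (κ / s) (by rw [map_div₀, hκ, hs]; field_simp)
  refine ⟨l * s / y, ?_⟩
  rw [div_mul_cancel₀ _ hy, map_mul, hs]
  have : κ = (κ / s) * s := by field_simp
  rw [this, ← hl]; ring

/-- Siegel elements. -/
lemma exists_siegel [FiniteDimensional F V] {e w : V} {c : F} (he : f e e = 0) (hwe : f w e = 0)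
    (hc : c + σ c + f w w = 0) : ∃ S : V ≃ₗ[F] V, S ∈ UGrp f ⊓ slGrp F V ∧
      ∀ x, S x = x + (-f x e) • w + (f x w + c * f x e) • e := by
  have hew : f e w = 0 := by rw [h.herm, hwe, map_zero]
  have h1 : (-h.hat e) w = 0 := by simp [hwe]
  have h2 : (h.hat w + (c + f w w) • h.hat e) e = 0 := by simp [hew, he]
  have hform : ∀ x, (LinearEquiv.transvection h2 * LinearEquiv.transvection h1) x =
      x + (-f x e) • w + (f x w + c * f x e) • e := by
    intro x
    simp only [LinearEquiv.mul_apply, LinearEquiv.transvection.apply, LinearMap.neg_apply,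
      LinearMap.add_apply, LinearMap.smul_apply, UF.hat_apply, smul_eq_mul, h.add_left,
      h.smul_left, hwe]
    module
  refine ⟨LinearEquiv.transvection h2 * LinearEquiv.transvection h1, ⟨?_, ?_⟩, hform⟩
  · intro x y
    rw [hform, hform]
    simp only [h.add_left, h.add_right, h.smul_left, h.smul_right, map_neg, map_add, map_mul,
      ← h.herm e y, ← h.herm w y, he, hwe, hew]
    linear_combination (f x e * f e y) * hc
  · change LinearEquiv.det _ = 1
    rw [map_mul, LinearEquiv.transvection.det_eq_one, LinearEquiv.transvection.det_eq_one, one_mul]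

/-- The commutator of two Siegel elements with the same centre is a unitary transvection. -/
lemma tv_of_comm {a b b' : V} {c c' : F} (ha : f a a = 0) (hb : f b a = 0) (hb' : f b' a = 0)
    {A B : V ≃ₗ[F] V} (hA : ∀ x, A x = x + (-f x a) • b + (f x b + c * f x a) • a)
    (hB : ∀ x, B x = x + (-f x a) • b' + (f x b' + c' * f x a) • a) (hAM : A ∈ M) (hBM : B ∈ M)
    {t : V ≃ₗ[F] V} (ht : ∀ x, t x = x + ((f b b' - f b' b) * f x a) • a) : t ∈ M := by
  have hab : f a b = 0 := by rw [h.herm, hb, map_zero]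
  have hab' : f a b' = 0 := by rw [h.herm, hb', map_zero]
  have key : t * (B * A) = A * B := by
    ext x
    simp only [LinearEquiv.mul_apply, ht, hA, hB, h.add_left, h.smul_left, ha, hb, hb', hab, hab']
    module
  have : t = A * B * (B * A)⁻¹ := eq_mul_inv_of_mul_eq key
  rw [this]
  exact mul_mem (mul_mem hAM hBM) (inv_mem (mul_mem hBM hAM))

end

end Cfsg.Agent.Lib.Helper97
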