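import Cfsg.Agent.Lib.Helper97.FullVec

set_option autoImplicit false

namespace Cfsg.Agent.Lib.Helper97

open Module

section scalars

variable {F : Type*} [Field F] (σ : F ≃+* F)

lemma exists_skew (hne : σ ≠ RingEquiv.refl F) (hinv : ∀ a, σ (σ a) = a) :
    ∃ a : F, a ≠ 0 ∧ σ a = -a := by
  obtain ⟨b, hb⟩ : ∃ b, σ b ≠ b := by
    by_contra hcon
    push Not at hcon
    exact hne (RingEquiv.ext hcon)
  refine ⟨b - σ b, fun h => hb (sub_eq_zero.1 h).symm, ?_⟩
  rw [map_sub, hinv]; ring

lemma exists_trace (hne : σ ≠ RingEquiv.refl F) (hinv : ∀ a, σ (σ a) = a) (c : F) (hc : σ c = c) :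
    ∃ l : F, l + σ l = c := by
  obtain ⟨b, hb⟩ : ∃ b, b + σ b ≠ 0 := by
    by_contra hcon
    push Not at hcon
    have h1 : (1 : F) + 1 = 0 := by simpa using hcon 1
    apply hne
    ext x
    have h2 := hcon x
    have h3 : σ x = -x := by linear_combination h2
    have h4 : -x = x := by linear_combination (-x) * h1
    rw [h3, h4]; rfl
  refine ⟨c * b / (b + σ b), ?_⟩
  have h5 : σ (b + σ b) = b + σ b := by rw [map_add, hinv]; ring
  rw [map_div₀, map_mul, h5, hc]
  field_simp

lemma exists_norm [Finite F] (hne : σ ≠ RingEquiv.refl F) (hinv : ∀ a, σ (σ a) = a) (c : F)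
    (hc : σ c = c) : ∃ l : F, l * σ l = c := by
  classical
  by_cases hc0 : c = 0
  · exact ⟨0, by simp [hc0]⟩
  let s : Fˣ →* Fˣ := Units.map (σ : F →* F)
  have hs : ∀ x : Fˣ, ((s x : Fˣ) : F) = σ x := fun x => rfl
  let N : Fˣ →* Fˣ := MonoidHom.id _ * s
  let D : Fˣ →* Fˣ := MonoidHom.id _ / s
  let E : Subgroup Fˣ := D.ker
  have hE : ∀ x : Fˣ, x ∈ E ↔ σ x = x := by
    intro x
    change x / s x = 1 ↔ _
    rw [div_eq_one]
    constructor
    · intro h
      have := congrArg Units.val h
      rw [hs] at this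
      exact this.symm
    · intro h
      apply Units.ext
      rw [hs, h]
  have h90 : D.range = N.ker := by
    apply le_antisymm
    · rintro _ ⟨y, rfl⟩
      change (y / s y) * s (y / s y) = 1
      have : s (s y) = y := Units.ext (by rw [hs, hs, hinv])
      rw [map_div, this]
      exact div_mul_div_cancel _ _ _ |>.trans (div_self' _)
    · intro x hx
      have hx' : (x : F) * σ x = 1 := by
        have : x * s x = 1 := hx
        have := congrArg Units.val this
        simpa [hs] using this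
      obtain ⟨b, hb⟩ : ∃ b : F, b + x * σ b ≠ 0 := by
        by_cases h1 : (1 : F) + x = 0
        · obtain ⟨b, hb⟩ : ∃ b, σ b ≠ b := by
            by_contra hcon
            push Not at hcon
            exact hne (RingEquiv.ext hcon)
          refine ⟨b, fun h => hb ?_⟩
          have hx1 : (x : F) = -1 := by linear_combination h1
          rw [hx1] at h
          linear_combination -h
        · exact ⟨1, by simpa using h1⟩
      refine ⟨Units.mk0 _ hb, ?_⟩
      change Units.mk0 _ hb / s (Units.mk0 _ hb) = x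
      rw [div_eq_iff_eq_mul]
      apply Units.ext
      rw [Units.val_mul, hs, Units.val_mk0, map_add, map_mul, hinv]
      linear_combination (-b) * hx'
  have hNE : N.range ≤ E := by
    rintro _ ⟨y, rfl⟩
    rw [hE]
    change σ ((y * s y : Fˣ) : F) = ((y * s y : Fˣ) : F)
    rw [Units.val_mul, hs, map_mul, hinv, mul_comm]
  have hcard : Nat.card N.range = Nat.card E := by
    have h1 := Subgroup.card_mul_index N.ker
    have h2 := Subgroup.card_mul_index D.ker
    rw [Subgroup.index_ker] at h1 h2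
    rw [← h90] at h1
    have h3 : 0 < Nat.card D.range := Nat.card_pos
    have : Nat.card D.range * Nat.card N.range = Nat.card D.range * Nat.card E := by
      rw [h1, mul_comm, h2]
    exact Nat.eq_of_mul_eq_mul_left h3 this
  have hEq : N.range = E := Subgroup.eq_of_le_of_card_ge hNE hcard.ge
  have hcE : Units.mk0 c hc0 ∈ E := by rw [hE]; exact hc
  rw [← hEq] at hcE
  obtain ⟨y, hy⟩ := hcE
  refine ⟨y, ?_⟩
  have := congrArg Units.val hy
  simpa [N, hs] using this

end scalars


section form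

variable {F V : Type*} [Field F] [AddCommGroup V] [Module F V]

/-- A non-degenerate unitary (hermitian) form given as a function. -/
structure UF (σ : F ≃+* F) (f : V → V → F) : Prop where
  ne_refl : σ ≠ RingEquiv.refl F
  involutive : ∀ a : F, σ (σ a) = a
  add_left : ∀ x y v, f (x + y) v = f x v + f y v
  smul_left : ∀ (c : F) (x v : V), f (c • x) v = c * f x v
  herm : ∀ v w, f v w = σ (f w v)
  nondeg : ∀ v : V, v ≠ 0 → ∃ x, f x v ≠ 0

namespace UF

variable {σ : F ≃+* F} {f : V → V → F} (h : UF σ f)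
include h

lemma add_right (v x y : V) : f v (x + y) = f v x + f v y := by
  rw [h.herm, h.add_left, map_add, ← h.herm, ← h.herm]

lemma smul_right (c : F) (v x : V) : f v (c • x) = σ c * f v x := by
  rw [h.herm, h.smul_left, map_mul, ← h.herm]

lemma zero_left (v : V) : f 0 v = 0 := by
  have := h.smul_left 0 0 v
  simpa using this

lemma zero_right (v : V) : f v 0 = 0 := by
  rw [h.herm, h.zero_left, map_zero]

lemma self_fixed (v : V) : σ (f v v) = f v v := (h.herm v v).symm

/-- The functional `x ↦ f x v`. -/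
def hat (v : V) : Dual F V where
  toFun x := f x v
  map_add' x y := h.add_left x y v
  map_smul' c x := h.smul_left c x v

@[simp] lemma hat_apply (v x : V) : h.hat v x = f x v := rfl

lemma hat_add (v w : V) : h.hat (v + w) = h.hat v + h.hat w := by
  ext x; simp [h.add_right]

lemma hat_smul (c : F) (v : V) : h.hat (c • v) = σ c • h.hat v := by
  ext x; simp [h.smul_right]

lemma hat_zero : h.hat 0 = 0 := by
  ext x; simp [h.zero_right]

lemma hat_eq_zero {v : V} (hv : h.hat v = 0) : v = 0 := by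
  by_contra hne
  obtain ⟨x, hx⟩ := h.nondeg v hne
  exact hx (by simpa using LinearMap.congr_fun hv x)

lemma hat_injective : Function.Injective h.hat := by
  intro v w hvw
  have : h.hat (v + (-1 : F) • w) = 0 := by
    rw [h.hat_add, h.hat_smul, hvw, map_neg, map_one]; module
  have := h.hat_eq_zero this
  simpa [add_neg_eq_zero] using this

lemma expand (x y : V) (m : F) :
    f (x + m • y) (x + m • y) = f x x + m * f y x + σ (m * f y x) + m * σ m * f y y := by
  rw [h.add_left, h.add_right, h.add_right, h.smul_left, h.smul_left, h.smul_right, h.smul_right,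
    map_mul, ← h.herm x y]
  ring

/-- Two isotropic vectors have an isotropic combination with non-zero coefficient. -/
lemma exists_iso_combo {x y : V} (hx : f x x = 0) (hy : f y y = 0) :
    ∃ m : F, m ≠ 0 ∧ f (x + m • y) (x + m • y) = 0 := by
  by_cases hyx : f y x = 0
  · refine ⟨1, one_ne_zero, ?_⟩
    rw [h.expand, hx, hy, hyx]; simp
  · obtain ⟨a, ha0, ha⟩ := exists_skew σ h.ne_refl h.involutive
    refine ⟨a / f y x, div_ne_zero ha0 hyx, ?_⟩
    rw [h.expand, hx, hy, div_mul_cancel₀ _ hyx, ha]; ring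

/-- Lemma Q. -/
lemma exists_iso_add [Finite F] (x y : V) (hy : f y y ≠ 0 ∨ f y x ≠ 0) :
    ∃ m : F, f (x + m • y) (x + m • y) = 0 := by
  by_cases hyy : f y y = 0
  · have hyx : f y x ≠ 0 := hy.resolve_left (fun hh => hh hyy)
    obtain ⟨l, hl⟩ := exists_trace σ h.ne_refl h.involutive (-f x x) (by
      rw [map_neg, h.self_fixed])
    refine ⟨l / f y x, ?_⟩
    rw [h.expand, hyy, div_mul_cancel₀ _ hyx]
    linear_combination hl
  · set b := f y y with hb
    set c := f y x with hc
    have hbf : σ b = b := h.self_fixed y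
    set k := σ c / b with hk
    have hsk : σ k = c / b := by rw [hk, map_div₀, h.involutive, hbf]
    obtain ⟨l, hl⟩ := exists_norm σ h.ne_refl h.involutive ((b * (k * σ k) - f x x) / b) (by
      rw [map_div₀, map_sub, map_mul, map_mul, h.involutive, hbf, h.self_fixed]; ring)
    refine ⟨l - k, ?_⟩
    rw [h.expand, ← hb, ← hc, map_mul, map_sub, hsk]
    have h1 : l * σ l * b = b * (k * (c / b)) - f x x := by
      rw [hl, hsk]; field_simp
    have h2 : k * b = σ c := by rw [hk]; field_simp
    have h3 : c / b * b = c := by field_simp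
    linear_combination h1 + (-(σ l) + c / b) * h2 + (-l + k) * h3

end UF

end form

section geometry

variable {F V : Type*} [Field F] [Finite F] [AddCommGroup V] [Module F V] [FiniteDimensional F V]
variable {σ : F ≃+* F} {f : V → V → F} (h : UF σ f)
include h

namespace UF

omit [FiniteDimensional F V] in
/-- T4. -/
lemma radical_of_no_iso (S : Submodule F V) (φ : Dual F V) (x : V) (hx : x ∈ S) (hφx : φ x ≠ 0)
    (hno : ∀ w ∈ S, f w w = 0 → φ w = 0) (y : V) (hy : y ∈ S) (hφy : φ y = 0) (s : V)
    (hs : s ∈ S) : f y s = 0 := by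
  have key : ∀ z ∈ S, φ z ≠ 0 → f y z = 0 := by
    intro z hz hφz
    by_contra hne
    obtain ⟨m, hm⟩ := h.exists_iso_add z y (Or.inr hne)
    have := hno (z + m • y) (S.add_mem hz (S.smul_mem m hy)) hm
    rw [map_add, map_smul, hφy, smul_zero, add_zero] at this
    exact hφz this
  by_cases hφs : φ s = 0
  · have h1 := key (x + s) (S.add_mem hx hs) (by rw [map_add, hφs, add_zero]; exact hφx)
    rw [h.add_right, key x hx hφx, zero_add] at h1
    exact h1
  · exact key s hs hφs

omit h [Finite F] in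
lemma finrank_inf_ker (S : Submodule F V) (φ : Dual F V) :
    finrank F S ≤ finrank F (S ⊓ LinearMap.ker φ : Submodule F V) + 1 := by
  have h1 := Submodule.finrank_sup_add_finrank_inf_eq S (LinearMap.ker φ)
  have h2 := LinearMap.finrank_range_add_finrank_ker φ
  have h3 : finrank F (LinearMap.range φ) ≤ 1 := by
    have := Submodule.finrank_le (LinearMap.range φ)
    simpa using this
  have h4 := Submodule.finrank_le (S ⊔ LinearMap.ker φ)
  omega

/-- T5. -/
lemma exists_iso_ne (S : Submodule F V) (hS : finrank F V + 1 < 2 * finrank F S) (φ : Dual F V)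
    (x : V) (hx : x ∈ S) (hφx : φ x ≠ 0) : ∃ w ∈ S, f w w = 0 ∧ φ w ≠ 0 := by
  by_contra hcon
  push Not at hcon
  have hrad := h.radical_of_no_iso S φ x hx hφx hcon
  let j : (S ⊓ LinearMap.ker φ : Submodule F V) → S.dualAnnihilator := fun y =>
    ⟨h.hat y.1, by
      rw [Submodule.mem_dualAnnihilator]
      intro s hs
      rw [h.hat_apply, h.herm, hrad y.1 y.2.1 y.2.2 s hs, map_zero]⟩
  have hj : Function.Injective j := by
    intro a b hab
    apply Subtype.ext
    exact h.hat_injective (congrArg Subtype.val hab)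
  have : Finite V := Module.finite_of_finite F
  have : Finite (Dual F V) := Module.finite_of_finite F
  have hc := Nat.card_le_card_of_injective j hj
  rw [Module.natCard_eq_pow_finrank (K := F) (V := (S ⊓ LinearMap.ker φ : Submodule F V)),
    Module.natCard_eq_pow_finrank (K := F) (V := S.dualAnnihilator)] at hc
  have hq : 1 < Nat.card F := Finite.one_lt_card
  have h1 := (Nat.pow_le_pow_iff_right hq).1 hc
  have h2 := finrank_inf_ker S φ
  have h3 := Subspace.finrank_add_finrank_dualAnnihilator_eq S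
  omega

/-- T6. -/
lemma exists_iso_ne_ne (S : Submodule F V) (hS : finrank F V + 1 < 2 * finrank F S)
    (φ ψ : Dual F V) (x y : V) (hx : x ∈ S) (hφx : φ x ≠ 0) (hy : y ∈ S) (hψy : ψ y ≠ 0) :
    ∃ w ∈ S, f w w = 0 ∧ φ w ≠ 0 ∧ ψ w ≠ 0 := by
  obtain ⟨w₁, h1S, h1i, h1⟩ := h.exists_iso_ne S hS φ x hx hφx
  obtain ⟨w₂, h2S, h2i, h2⟩ := h.exists_iso_ne S hS ψ y hy hψy
  by_cases h3 : ψ w₁ = 0
  · by_cases h4 : φ w₂ = 0
    · obtain ⟨m, hm0, hm⟩ := h.exists_iso_combo h1i h2i
      refine ⟨w₁ + m • w₂, S.add_mem h1S (S.smul_mem m h2S), hm, ?_, ?_⟩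
      · rw [map_add, map_smul, h4, smul_zero, add_zero]; exact h1
      · rw [map_add, map_smul, h3, zero_add, smul_eq_mul]; exact mul_ne_zero hm0 h2
    · exact ⟨w₂, h2S, h2i, h4, h2⟩
  · exact ⟨w₁, h1S, h1i, h1, h3⟩

/-- Riesz representation. -/
lemma exists_hat_eq (φ : Dual F V) : ∃ w, h.hat w = φ := by
  have : Finite V := Module.finite_of_finite F
  have : Finite (Dual F V) := Module.finite_of_finite F
  have hc : Nat.card (Dual F V) ≤ Nat.card V := by
    rw [Module.natCard_eq_pow_finrank (K := F) (V := Dual F V),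
      Module.natCard_eq_pow_finrank (K := F) (V := V), Subspace.dual_finrank_eq]
  exact (h.hat_injective.bijective_of_nat_card_le hc).2 φ

end UF

end geometry

section main

variable {F V : Type*} [Field F] [Finite F] [AddCommGroup V] [Module F V] [FiniteDimensional F V]
variable {σ : F ≃+* F} {f : V → V → F} (h : UF σ f) {M : Subgroup (V ≃ₗ[F] V)}

omit [Finite F] [FiniteDimensional F V] in
lemma exists_smul_of_ker_le {φ ψ : Dual F V} (hk : ∀ x, φ x = 0 → ψ x = 0) : ∃ c : F, ψ = c • φ := by
  by_cases hφ : φ = 0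
  · refine ⟨0, ?_⟩
    ext x
    simp [hk x (by simp [hφ])]
  · obtain ⟨x, hx⟩ : ∃ x, φ x ≠ 0 := by
      by_contra hcon
      push Not at hcon
      exact hφ (LinearMap.ext hcon)
    refine ⟨ψ x / φ x, ?_⟩
    ext y
    have h1 : ψ (y - (φ y / φ x) • x) = 0 := hk _ (by simp [hx])
    rw [map_sub, map_smul, smul_eq_mul, sub_eq_zero] at h1
    rw [h1, LinearMap.smul_apply, smul_eq_mul]
    field_simp

/-- `M` contains all the unitary transvections of `f`. -/
def UT (h : UF σ f) (M : Subgroup (V ≃ₗ[F] V)) : Prop :=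
  ∀ v, f v v = 0 → ∀ a, σ a = -a → TX M v (a • h.hat v)

/-- All multiples of `ψ` are axes of transvections of `M` with centre `u`. -/
def PsiMem (M : Subgroup (V ≃ₗ[F] V)) (u : V) (ψ : Dual F V) : Prop := ∀ l : F, TX M u (l • ψ)

include h

omit [Finite F] [FiniteDimensional F V] in
lemma step_comm (hM : UT h M) {u z : V} {φ : Dual F V} (hφ : TX M u φ) (hz : f z z = 0)
    (huz : f u z = 0) (a : F) (ha : σ a = -a) : TX M u ((φ z * a) • h.hat z) := by
  have := hφ.comm (hM z hz a ha) (by simp [huz])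
  rwa [smul_smul] at this

omit [Finite F] [FiniteDimensional F V] in
lemma psiMem_of_pair (hM : UT h M) {u w w' : V} {φ : Dual F V} (hφ : TX M u φ) (hw : f w w = 0)
    (hw' : f w' w' = 0) (huw : f u w = 0) (huw' : f u w' = 0) (hww' : f w' w = 0) (hφw : φ w ≠ 0)
    (hφw' : φ w' = 0) : PsiMem M u (h.hat w') := by
  intro l
  obtain ⟨a, ha0, ha⟩ := exists_skew σ h.ne_refl h.involutive
  set m : F := σ (l / (φ w * a)) with hm
  have hz : f (w + m • w') (w + m • w') = 0 := by
    rw [h.expand, hw, hw', hww']; simp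
  have huz : f u (w + m • w') = 0 := by
    rw [h.add_right, h.smul_right, huw, huw']; simp
  have h1 := step_comm h hM hφ hz huz a ha
  have h2 := step_comm h hM hφ hw huw a ha
  have h3 := h1.sub_right h2
  have : (φ (w + m • w') * a) • h.hat (w + m • w') - (φ w * a) • h.hat w = l • h.hat w' := by
    rw [map_add, map_smul, hφw', smul_zero, add_zero, h.hat_add, h.hat_smul, hm, h.involutive,
      smul_add, add_sub_cancel_left, smul_smul, mul_div_cancel₀ _ (mul_ne_zero hφw ha0)]
  rwa [this] at h3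

omit [Finite F] [FiniteDimensional F V] in
lemma psiMem_hat (hM : UT h M) {u z : V} {ψ : Dual F V} (hψ : PsiMem M u ψ) (hz : f z z = 0)
    (huz : f u z = 0) (hψz : ψ z ≠ 0) : PsiMem M u (h.hat z) := by
  intro l
  obtain ⟨a, ha0, ha⟩ := exists_skew σ h.ne_refl h.involutive
  have h1 := step_comm h hM (hψ (l / (ψ z * a))) hz huz a ha
  have : ((l / (ψ z * a)) • ψ) z * a = l := by
    rw [LinearMap.smul_apply, smul_eq_mul]
    field_simp
  rwa [this] at h1

/-- The subspace of `z` with `hat z` in `Ψ`. -/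
def psiSub (M : Subgroup (V ≃ₗ[F] V)) (u : V) : Submodule F V where
  carrier := {z | PsiMem M u (h.hat z)}
  add_mem' := by
    intro a b ha hb l
    rw [h.hat_add, smul_add]
    exact (ha l).add_right (hb l)
  zero_mem' := by
    intro l
    rw [h.hat_zero, smul_zero]
    exact TX_zero_right u
  smul_mem' := by
    intro c a ha l
    rw [h.hat_smul, smul_smul]
    exact ha _

omit [Finite F] in
lemma finrank_ker_hat (u : V) : finrank F V ≤ finrank F (LinearMap.ker (h.hat u)) + 1 := by
  have := UF.finrank_inf_ker (⊤ : Submodule F V) (h.hat u)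
  rwa [top_inf_eq, finrank_top] at this

/-- Step 1. -/
theorem full_of_TX (hn : 9 ≤ finrank F V) (hM : UT h M) {u : V} {φ : Dual F V} (hφ : TX M u φ)
    (hne : ∀ c : F, φ ≠ c • h.hat u) : Full M u := by
  have hsym : ∀ x y, f x y = 0 → f y x = 0 := fun x y hxy => by rw [h.herm, hxy, map_zero]
  set S := LinearMap.ker (h.hat u) with hS
  have hSr : finrank F V ≤ finrank F S + 1 := finrank_ker_hat h u
  -- an isotropic `w ⊥ u` with `φ w ≠ 0`
  obtain ⟨x, hxS, hφx⟩ : ∃ x ∈ S, φ x ≠ 0 := by
    by_contra hcon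
    push Not at hcon
    obtain ⟨c, hc⟩ := exists_smul_of_ker_le (φ := h.hat u) (ψ := φ) (fun x hx => hcon x hx)
    exact hne c hc
  obtain ⟨w, hwS, hw, hφw⟩ := h.exists_iso_ne S (by omega) φ x hxS hφx
  -- an isotropic `w'` in `S₃`, outside `span u`
  set S₃ := (S ⊓ LinearMap.ker φ) ⊓ LinearMap.ker (h.hat w) with hS₃
  have hr1 := UF.finrank_inf_ker S φ
  have hr2 : finrank F (S ⊓ LinearMap.ker φ : Submodule F V) ≤ finrank F S₃ + 1 :=
    UF.finrank_inf_ker (S ⊓ LinearMap.ker φ) (h.hat w)
  obtain ⟨s, hsS, hsu⟩ : ∃ s ∈ S₃, s ∉ Submodule.span F {u} := by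
    by_contra hcon
    push Not at hcon
    have hle : S₃ ≤ Submodule.span F {u} := hcon
    have h1 := Submodule.finrank_mono hle
    have h2 := finrank_span_le_card ({u} : Set V) (R := F)
    simp at h2
    omega
  obtain ⟨χ, hχs, hχu⟩ := Submodule.exists_dual_map_eq_bot_of_notMem hsu inferInstance
  obtain ⟨w', hw'S, hw', hχw'⟩ := h.exists_iso_ne S₃ (by omega) χ s hsS hχs
  have hw'u : w' ∉ Submodule.span F {u} := by
    intro hmem
    have : χ w' ∈ (Submodule.span F {u}).map χ := ⟨w', hmem, rfl⟩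
    rw [hχu] at this
    exact hχw' (by simpa using this)
  have hψ₁ : PsiMem M u (h.hat w') :=
    psiMem_of_pair h hM hφ hw hw' (hsym _ _ hwS) (hsym _ _ hw'S.1.1) hw'S.2 hφw hw'S.1.2
  -- `hat w'` does not vanish on `S`
  obtain ⟨y, hyS, hψy⟩ : ∃ y ∈ S, h.hat w' y ≠ 0 := by
    by_contra hcon
    push Not at hcon
    obtain ⟨c, hc⟩ := exists_smul_of_ker_le (φ := h.hat u) (ψ := h.hat w') (fun x hx => hcon x hx)
    apply hw'u
    have : h.hat w' = h.hat (σ c • u) := by rw [h.hat_smul, h.involutive, hc]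
    rw [h.hat_injective this]
    exact Submodule.smul_mem _ _ (Submodule.mem_span_singleton_self u)
  -- `S ≤ psiSub`
  have hle : S ≤ psiSub h M u := by
    intro z₀ hz₀
    by_contra hz₀Y
    obtain ⟨χ', hχz, hχY⟩ := Submodule.exists_dual_map_eq_bot_of_notMem hz₀Y inferInstance
    obtain ⟨z, hzS, hz, hχ'z, hψz⟩ :=
      h.exists_iso_ne_ne S (by omega) χ' (h.hat w') z₀ y hz₀ hχz hyS hψy
    have hzY : z ∈ psiSub h M u := psiMem_hat h hM hψ₁ hz (hsym _ _ hzS) hψz
    have : χ' z ∈ (psiSub h M u).map χ' := ⟨z, hzY, rfl⟩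
    rw [hχY] at this
    exact hχ'z (by simpa using this)
  intro ψ hψu
  obtain ⟨z, rfl⟩ := h.exists_hat_eq ψ
  have hz : z ∈ S := hsym _ _ hψu
  have := hle hz 1
  rwa [one_smul] at this

/-- Step 2. -/
theorem fullSub_eq_top_of_full (hn : 9 ≤ finrank F V) (hM : UT h M) {u : V} (hu0 : u ≠ 0)
    (hu : Full M u) : fullSub M = ⊤ := by
  by_contra hne
  obtain ⟨χ, hχ0, hχ⟩ := Submodule.exists_le_ker_of_lt_top _ (lt_top_iff_ne_top.2 hne)
  obtain ⟨x, hx⟩ : ∃ x, χ x ≠ 0 := by
    by_contra hcon
    push Not at hcon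
    exact hχ0 (LinearMap.ext hcon)
  obtain ⟨y, hy⟩ := h.nondeg u hu0
  obtain ⟨v, -, hv, hχv, hvu⟩ := h.exists_iso_ne_ne ⊤ (by simp; omega) χ (h.hat u) x y trivial hx
    trivial hy
  obtain ⟨a, ha0, ha⟩ := exists_skew σ h.ne_refl h.involutive
  have ht := hM v hv a ha
  have h1 : _ ∈ fullSub M := fullSub_conj (M := M) (v := u) hu (ht.mem ht.apply_eq_zero)
  rw [LinearEquiv.transvection.apply] at h1
  have h2 := (fullSub M).sub_mem h1 hu
  rw [add_sub_cancel_left] at h2
  have hc : (a • h.hat v) u ≠ 0 := by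
    rw [LinearMap.smul_apply, smul_eq_mul, h.hat_apply, h.herm]
    exact mul_ne_zero ha0 ((map_ne_zero σ).2 hvu)
  have h3 := (fullSub M).smul_mem ((a • h.hat v) u)⁻¹ h2
  rw [smul_smul, inv_mul_cancel₀ hc, one_smul] at h3
  exact hχv (hχ h3)

end main

section step0

variable {F V : Type*} [Field F] [Finite F] [AddCommGroup V] [Module F V] [FiniteDimensional F V]
variable {σ : F ≃+* F} {f : V → V → F} (h : UF σ f) {M : Subgroup (V ≃ₗ[F] V)}
include h

/-- isotropic vectors span. -/
lemma top_le_of_iso (hn : 9 ≤ finrank F V) (Y : Submodule F V) (hY : ∀ v, f v v = 0 → v ∈ Y) :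
    Y = ⊤ := by
  by_contra hne
  obtain ⟨χ, hχ0, hχ⟩ := Submodule.exists_le_ker_of_lt_top _ (lt_top_iff_ne_top.2 hne)
  obtain ⟨x, hx⟩ : ∃ x, χ x ≠ 0 := by
    by_contra hcon
    push Not at hcon
    exact hχ0 (LinearMap.ext hcon)
  obtain ⟨v, -, hv, hχv⟩ := h.exists_iso_ne ⊤ (by simp; omega) χ x trivial hx
  exact hχv (hχ (hY v hv))

lemma exists_iso_ne_zero (hn : 9 ≤ finrank F V) : ∃ v : V, v ≠ 0 ∧ f v v = 0 := by
  by_contra hcon
  push Not at hcon
  have := top_le_of_iso h hn ⊥ (fun v hv => by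
    by_contra hv0
    exact hcon v hv0 hv)
  have h2 : finrank F (⊥ : Submodule F V) = finrank F V := by rw [this, finrank_top]
  simp at h2
  omega

/-- Step 0. -/
theorem exists_TX_not_hat (hn : 9 ≤ finrank F V) (hM : UT h M) {g : V ≃ₗ[F] V} (hg : g ∈ M)
    (hns : ¬ ∃ c : Fˣ, ∀ u v, f (g u) (g v) = (c : F) * f u v) :
    ∃ (u : V) (φ : Dual F V), u ≠ 0 ∧ TX M u φ ∧ ∀ c : F, φ ≠ c • h.hat u := by
  by_contra hcon
  push Not at hcon
  obtain ⟨a, ha0, ha⟩ := exists_skew σ h.ne_refl h.involutive
  have hlam : ∀ v, v ≠ 0 → f v v = 0 → ∃ l : F, ∀ x, f x v = l * f (g x) (g v) := by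
    intro v hv0 hv
    obtain ⟨c, hc⟩ := hcon (g v) _ (by simpa using hv0) ((hM v hv a ha).conj hg)
    refine ⟨c / a, fun x => ?_⟩
    have := LinearMap.congr_fun hc (g x)
    simp only [LinearMap.comp_apply, LinearEquiv.coe_coe, LinearEquiv.symm_apply_apply,
      LinearMap.smul_apply, UF.hat_apply, smul_eq_mul] at this
    field_simp
    linear_combination this
  obtain ⟨v₀, hv₀0, hv₀⟩ := exists_iso_ne_zero h hn
  obtain ⟨l₀, hl₀⟩ := hlam v₀ hv₀0 hv₀
  let Y : Submodule F V :=
    { carrier := {y | ∀ x, f x y = l₀ * f (g x) (g y)}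
      add_mem' := by
        intro y y' hy hy' x
        rw [h.add_right, map_add, h.add_right, hy x, hy' x]; ring
      zero_mem' := by
        intro x
        rw [map_zero, h.zero_right, h.zero_right, mul_zero]
      smul_mem' := by
        intro c y hy x
        rw [h.smul_right, map_smul, h.smul_right, hy x]; ring }
  have hv₀Y : v₀ ∈ Y := hl₀
  have hY : Y = ⊤ := by
    apply top_le_of_iso h hn
    intro v hv
    by_cases hvs : v ∈ Submodule.span F {v₀}
    · obtain ⟨c, rfl⟩ := Submodule.mem_span_singleton.1 hvs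
      exact Y.smul_mem c hv₀Y
    · have hv0 : v ≠ 0 := by
        rintro rfl
        exact hvs (Submodule.zero_mem _)
      obtain ⟨l, hl⟩ := hlam v hv0 hv
      obtain ⟨m, hm0, hm⟩ := h.exists_iso_combo hv₀ hv
      have hw0 : v₀ + m • v ≠ 0 := by
        intro h0
        apply hvs
        have : v = (-m⁻¹) • v₀ := by
          have h1 : m • v = -v₀ := (neg_eq_of_add_eq_zero_right h0).symm
          calc v = m⁻¹ • (m • v) := by rw [smul_smul, inv_mul_cancel₀ hm0, one_smul]
            _ = (-m⁻¹) • v₀ := by rw [h1]; simp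
        rw [this]
        exact Submodule.smul_mem _ _ (Submodule.mem_span_singleton_self v₀)
      obtain ⟨lw, hlw⟩ := hlam _ hw0 hm
      -- the relation
      have hrel : ∀ x, f (g x) (g (σ (l₀ - lw) • v₀ + (m * σ (l - lw)) • v)) = 0 := by
        intro x
        have h1 := hlw x
        rw [h.add_right, h.smul_right, map_add, map_smul, h.add_right, h.smul_right, hl₀ x, hl x]
          at h1
        rw [map_add, map_smul, map_smul, h.add_right, h.smul_right, h.smul_right, map_mul,
          h.involutive, h.involutive]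
        linear_combination h1
      have hzero : σ (l₀ - lw) • v₀ + (m * σ (l - lw)) • v = 0 := by
        by_contra hne
        obtain ⟨x, hx⟩ := h.nondeg (g (σ (l₀ - lw) • v₀ + (m * σ (l - lw)) • v))
          (fun h0 => hne (g.map_eq_zero_iff.1 h0))
        apply hx
        have := hrel (g.symm x)
        rwa [LinearEquiv.apply_symm_apply] at this
      have hb : m * σ (l - lw) = 0 := by
        by_contra hb
        apply hvs
        have : v = (-(m * σ (l - lw))⁻¹ * σ (l₀ - lw)) • v₀ := by
          have h1 : (m * σ (l - lw)) • v = -(σ (l₀ - lw) • v₀) :=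
            (neg_eq_of_add_eq_zero_right hzero).symm
          calc v = (m * σ (l - lw))⁻¹ • ((m * σ (l - lw)) • v) := by
                rw [smul_smul, inv_mul_cancel₀ hb, one_smul]
            _ = _ := by rw [h1, smul_neg, smul_smul, neg_mul, neg_smul]
        rw [this]
        exact Submodule.smul_mem _ _ (Submodule.mem_span_singleton_self v₀)
      rw [hb, zero_smul, add_zero] at hzero
      have ha' : σ (l₀ - lw) = 0 := (smul_eq_zero.1 hzero).resolve_right hv₀0
      have h1 : l₀ = lw := sub_eq_zero.1 ((map_eq_zero σ).1 ha')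
      have h2 : l = lw := sub_eq_zero.1 ((map_eq_zero σ).1 ((mul_eq_zero.1 hb).resolve_left hm0))
      intro x
      rw [hl x, h2, h1]
  have hall : ∀ x y, f x y = l₀ * f (g x) (g y) := by
    intro x y
    have : y ∈ Y := by rw [hY]; trivial
    exact this x
  have hl₀0 : l₀ ≠ 0 := by
    rintro rfl
    obtain ⟨x, hx⟩ := h.nondeg v₀ hv₀0
    exact hx (by rw [hall]; simp)
  apply hns
  refine ⟨Units.mk0 l₀⁻¹ (inv_ne_zero hl₀0), fun u v => ?_⟩
  rw [Units.val_mk0, hall u v]
  field_simp

/-- Main theorem: an overgroup of the unitary transvections containing a non-similitude contains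
all transvections. -/
theorem fullSub_eq_top_of_not_sim (hn : 9 ≤ finrank F V) (hM : UT h M) {g : V ≃ₗ[F] V} (hg : g ∈ M)
    (hns : ¬ ∃ c : Fˣ, ∀ u v, f (g u) (g v) = (c : F) * f u v) : fullSub M = ⊤ := by
  obtain ⟨u, φ, hu0, hφ, hne⟩ := exists_TX_not_hat h hn hM hg hns
  exact fullSub_eq_top_of_full h hn hM hu0 (full_of_TX h hn hM hφ hne)

omit [Finite F] [FiniteDimensional F V] in
/-- Unitary transvections are isometries. -/
lemma unitary_transvection_isometry {v : V} (hv : f v v = 0) {a : F} (ha : σ a = -a)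
    (h0 : (a • h.hat v) v = 0) (x y : V) :
    f (LinearEquiv.transvection h0 x) (LinearEquiv.transvection h0 y) = f x y := by
  simp only [LinearEquiv.transvection.apply, LinearMap.smul_apply, UF.hat_apply, smul_eq_mul]
  rw [h.add_left, h.add_right, h.add_right, h.smul_left, h.smul_left, h.smul_right, h.smul_right,
    hv, map_mul, ha, ← h.herm v y]
  ring

/-- There is a transvection which is not a similitude. -/
theorem exists_transvection_not_sim (hn : 9 ≤ finrank F V) :
    ∃ (u : V) (φ : Dual F V) (h0 : φ u = 0),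
      ¬ ∃ c : Fˣ, ∀ x y, f (LinearEquiv.transvection h0 x) (LinearEquiv.transvection h0 y) =
        (c : F) * f x y := by
  obtain ⟨u, hu0, hu⟩ := exists_iso_ne_zero h hn
  have hr := finrank_ker_hat h u
  obtain ⟨z, hzS, hzu⟩ : ∃ z ∈ LinearMap.ker (h.hat u), z ∉ Submodule.span F {u} := by
    by_contra hcon
    push Not at hcon
    have hle : LinearMap.ker (h.hat u) ≤ Submodule.span F {u} := hcon
    have h1 := Submodule.finrank_mono hle
    have h2 := finrank_span_le_card ({u} : Set V) (R := F)
    simp at h2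
    omega
  have h0 : h.hat z u = 0 := by
    have : f z u = 0 := hzS
    rw [h.hat_apply, h.herm, this, map_zero]
  refine ⟨u, h.hat z, h0, ?_⟩
  rintro ⟨c, hc⟩
  obtain ⟨y₀, hy₀⟩ := h.nondeg u hu0
  have hexp : ∀ x y, f (LinearEquiv.transvection h0 x) (LinearEquiv.transvection h0 y) =
      f x y + σ (f y z) * f x u + f x z * f u y := by
    intro x y
    simp only [LinearEquiv.transvection.apply, UF.hat_apply]
    rw [h.add_left, h.add_right, h.add_right, h.smul_left, h.smul_left, h.smul_right,
      h.smul_right, hu]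
    ring
  have hc1 : (c : F) = 1 := by
    have h1 := hc u y₀
    have huz : f u z = 0 := h0
    rw [hexp, hu, huz] at h1
    have huy : f u y₀ ≠ 0 := by rw [h.herm]; exact (map_ne_zero σ).2 hy₀
    have : (1 - (c : F)) * f u y₀ = 0 := by linear_combination h1
    rcases mul_eq_zero.1 this with h2 | h2
    · linear_combination -h2
    · exact absurd h2 huy
  -- some `y` with `f y z = 0`, `f u y ≠ 0`
  obtain ⟨y, hyz, hyu⟩ : ∃ y, f y z = 0 ∧ f y u ≠ 0 := by
    by_contra hcon
    push Not at hcon
    obtain ⟨d, hd⟩ := exists_smul_of_ker_le (φ := h.hat z) (ψ := h.hat u) (fun x hx => hcon x hx)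
    have hd0 : d ≠ 0 := by
      rintro rfl
      rw [zero_smul] at hd
      exact hu0 (h.hat_eq_zero hd)
    apply hzu
    have : h.hat z = h.hat (σ d⁻¹ • u) := by
      rw [h.hat_smul, h.involutive, hd, smul_smul, inv_mul_cancel₀ hd0, one_smul]
    rw [h.hat_injective this]
    exact Submodule.smul_mem _ _ (Submodule.mem_span_singleton_self u)
  have hz0 : z ≠ 0 := by
    rintro rfl
    exact hzu (Submodule.zero_mem _)
  obtain ⟨x, hx⟩ := h.nondeg z hz0
  have h1 := hc x y
  rw [hexp, hc1, hyz, map_zero] at h1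
  have huy : f u y ≠ 0 := by rw [h.herm]; exact (map_ne_zero σ).2 hyu
  have : f x z * f u y = 0 := by linear_combination h1
  exact (mul_ne_zero hx huy) this

end step0

end Cfsg.Agent.Lib.Helper97
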